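import Mathlib

/-!
# Siegel maps of a symmetric bilinear form (abstract, characteristic not two)

`siegel B u w x = x + B x w • u - B x u • w - (B w w / 2 * B x u) • u`, for `B u u = 0` and
`B u w = 0`. Basic algebra: additivity, homogeneity, the composition law, isometry, iterates and
conjugation by semilinear similarities.
-/

set_option autoImplicit false

namespace Cfsg.Agent.Lib.Helper43.OMinusBal

universe u v

section

variable {E : Type u} [Field E] {W : Type v} [AddCommGroup W] [Module E W]

/-- The Siegel map of a symmetric bilinear form. -/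
def siegel (B : LinearMap.BilinForm E W) (u w : W) (x : W) : W :=
  x + B x w • u - B x u • w - (B w w / 2 * B x u) • u

variable (B : LinearMap.BilinForm E W)

theorem siegel_add (u w x y : W) : siegel B u w (x + y) = siegel B u w x + siegel B u w y := by
  simp only [siegel, map_add, LinearMap.add_apply]
  module

theorem siegel_smul (u w : W) (c : E) (x : W) : siegel B u w (c • x) = c • siegel B u w x := by
  simp only [siegel, map_smul, LinearMap.smul_apply, smul_eq_mul]
  module

theorem siegel_zero_right (u x : W) : siegel B u 0 x = x := by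
  simp [siegel]

/-- Bilinear form of two Siegel images. -/
theorem siegel_form (hsym : ∀ x y, B x y = B y x) (h2 : (2 : E) ≠ 0) {u w : W} (hu : B u u = 0)
    (huw : B u w = 0) (x y : W) : B (siegel B u w x) (siegel B u w y) = B x y := by
  have hwu : B w u = 0 := by rw [hsym]; exact huw
  simp only [siegel, map_add, map_sub, map_smul, LinearMap.add_apply, LinearMap.sub_apply,
    LinearMap.smul_apply, smul_eq_mul, hu, huw, hwu, hsym u y, hsym w y]
  field_simp
  ring

/-- The composition law of the Siegel maps with a common singular vector. -/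
theorem siegel_comp (hsym : ∀ x y, B x y = B y x) (h2 : (2 : E) ≠ 0) {u w w' : W}
    (hu : B u u = 0) (huw : B u w = 0) (huw' : B u w' = 0) (x : W) :
    siegel B u w (siegel B u w' x) = siegel B u (w + w') x := by
  have hwu : B w u = 0 := by rw [hsym]; exact huw
  have hwu' : B w' u = 0 := by rw [hsym]; exact huw'
  simp only [siegel, map_add, map_sub, map_smul, LinearMap.add_apply, LinearMap.sub_apply,
    LinearMap.smul_apply, smul_eq_mul, hu, huw, hwu', hsym w' w]
  match_scalars <;> field_simp <;> ring

theorem siegel_neg_cancel (hsym : ∀ x y, B x y = B y x) (h2 : (2 : E) ≠ 0) {u w : W}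
    (hu : B u u = 0) (huw : B u w = 0) (x : W) : siegel B u w (siegel B u (-w) x) = x := by
  have h : B u (-w) = 0 := by rw [map_neg, huw, neg_zero]
  rw [siegel_comp B hsym h2 hu huw h, add_neg_cancel, siegel_zero_right]

theorem siegel_neg_cancel' (hsym : ∀ x y, B x y = B y x) (h2 : (2 : E) ≠ 0) {u w : W}
    (hu : B u u = 0) (huw : B u w = 0) (x : W) : siegel B u (-w) (siegel B u w x) = x := by
  have h : B u (-w) = 0 := by rw [map_neg, huw, neg_zero]
  rw [siegel_comp B hsym h2 hu h huw, neg_add_cancel, siegel_zero_right]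

/-- Iterates of a Siegel map. -/
theorem siegel_iterate (hsym : ∀ x y, B x y = B y x) (h2 : (2 : E) ≠ 0) {u w : W}
    (hu : B u u = 0) (huw : B u w = 0) (n : ℕ) (x : W) :
    (siegel B u w)^[n] x = siegel B u (n • w) x := by
  induction n generalizing x with
  | zero => rw [Function.iterate_zero, id, zero_smul, siegel_zero_right]
  | succ n ih =>
    have h : B u (n • w) = 0 := by rw [map_nsmul, huw, smul_zero]
    rw [Function.iterate_succ_apply', ih, siegel_comp B hsym h2 hu huw h, add_comm, succ_nsmul]

/-- In characteristic `r`, the `r`-th iterate of a Siegel map is the identity. -/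
theorem siegel_iterate_char (hsym : ∀ x y, B x y = B y x) (h2 : (2 : E) ≠ 0) (r : ℕ) [CharP E r]
    {u w : W} (hu : B u u = 0) (huw : B u w = 0) (x : W) : (siegel B u w)^[r] x = x := by
  rw [siegel_iterate B hsym h2 hu huw]
  have h : (r • w : W) = 0 := by
    rw [← Nat.cast_smul_eq_nsmul E, CharP.cast_eq_zero, zero_smul]
  rw [h, siegel_zero_right]

/-- Conjugation of a Siegel map by a semilinear similarity. -/
theorem siegel_conj (ψ : W → W) (σ : E ≃+* E) (μ : E) (hμ : μ ≠ 0)
    (hadd : ∀ x y, ψ (x + y) = ψ x + ψ y) (hsm : ∀ (c : E) (x : W), ψ (c • x) = σ c • ψ x)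
    (hB : ∀ x y, B (ψ x) (ψ y) = μ * σ (B x y)) (u w x : W) :
    ψ (siegel B u w x) = siegel B (ψ u) (μ⁻¹ • ψ w) (ψ x) := by
  have hsub : ∀ x y, ψ (x - y) = ψ x - ψ y := by
    intro x y
    have h := hadd (x - y) y
    rw [sub_add_cancel] at h
    rw [h, add_sub_cancel_right]
  simp only [siegel, hadd, hsub, hsm, map_smul, LinearMap.smul_apply, smul_eq_mul, hB, map_mul,
    map_div₀, map_ofNat]
  match_scalars <;> field_simp

/-- The Weyl element `S(u, t w) S(u', w) S(u, t w)` with `t = (B w w / 2 * B u u')⁻¹` maps `u` to a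
multiple of `u'`. -/
theorem weyl_left (hsym : ∀ x y, B x y = B y x) (h2 : (2 : E) ≠ 0) {u u' w : W}
    (hu : B u u = 0) (hu' : B u' u' = 0) (hβ : B u u' ≠ 0) (hwu : B w u = 0) (hwu' : B w u' = 0)
    (hδ : B w w ≠ 0) :
    siegel B u ((B w w / 2 * B u u')⁻¹ • w) (siegel B u' w
      (siegel B u ((B w w / 2 * B u u')⁻¹ • w) u)) = (-(B w w / 2 * B u u')) • u' := by
  have huw : B u w = 0 := by rw [hsym]; exact hwu
  have hu'w : B u' w = 0 := by rw [hsym]; exact hwu'
  have hu'u : B u' u = B u u' := hsym _ _
  simp only [siegel, map_add, map_sub, map_smul, LinearMap.add_apply, LinearMap.sub_apply,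
    LinearMap.smul_apply, smul_eq_mul, hu, hu', huw, hu'w, hwu, hwu', hu'u]
  match_scalars <;> field_simp <;> ring

/-- The same Weyl element maps `u'` to a multiple of `u`. -/
theorem weyl_right (hsym : ∀ x y, B x y = B y x) (h2 : (2 : E) ≠ 0) {u u' w : W}
    (hu : B u u = 0) (hu' : B u' u' = 0) (hβ : B u u' ≠ 0) (hwu : B w u = 0) (hwu' : B w u' = 0)
    (hδ : B w w ≠ 0) :
    siegel B u ((B w w / 2 * B u u')⁻¹ • w) (siegel B u' w
      (siegel B u ((B w w / 2 * B u u')⁻¹ • w) u')) = (-(B w w / 2 * B u u')⁻¹) • u := by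
  have huw : B u w = 0 := by rw [hsym]; exact hwu
  have hu'w : B u' w = 0 := by rw [hsym]; exact hwu'
  have hu'u : B u' u = B u u' := hsym _ _
  simp only [siegel, map_add, map_sub, map_smul, LinearMap.add_apply, LinearMap.sub_apply,
    LinearMap.smul_apply, smul_eq_mul, hu, hu', huw, hu'w, hwu, hwu', hu'u]
  match_scalars <;> field_simp <;> ring

end

end Cfsg.Agent.Lib.Helper43.OMinusBal
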