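import Mathlib
import Cfsg.Prelude.Def_LieTypeDatum
import Cfsg.Agent.Lib.Helper14.AutON
import Cfsg.Agent.Lib.Helper43.OMinusBal.Siegel

/-!
# S2733 (local balance for `PΩ⁻`): the interface of the packages

Statements (as `Prop`-valued definitions) of the pieces of the proof of S2733.
-/

set_option autoImplicit false

namespace Cfsg.Agent.Lib.Helper43.OMinusBal

open Cfsg.Agent.Lib.Helper14 Matrix

universe u v

/-- A set `M` of semilinear similarities of the symmetric bilinear form `B`, closed under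
composition, inverses and conjugation by the Siegel maps. -/
structure MData {E : Type u} [Field E] {W : Type v} [AddCommGroup W] [Module E W]
    (B : LinearMap.BilinForm E W) (M : Set (W → W)) : Prop where
  semi : ∀ ψ ∈ M, ∃ (σ : E ≃+* E) (μ : E), μ ≠ 0 ∧ (∀ x y, ψ (x + y) = ψ x + ψ y) ∧
    (∀ (c : E) (x : W), ψ (c • x) = σ c • ψ x) ∧ (∀ x y, B (ψ x) (ψ y) = μ * σ (B x y))
  mul : ∀ ψ ∈ M, ∀ ψ' ∈ M, ψ ∘ ψ' ∈ M
  inv : ∀ ψ ∈ M, ∃ ψ' ∈ M, ψ ∘ ψ' = id ∧ ψ' ∘ ψ = id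
  conj : ∀ ψ ∈ M, ∀ u w : W, B u u = 0 → B u w = 0 → siegel B u w ∘ ψ ∘ siegel B u (-w) ∈ M

/-- Existence of isotropic vectors in dimension at least three over a finite field. -/
def LemIso : Prop :=
  ∀ {E : Type u} [Field E] [Finite E] {W : Type v} [AddCommGroup W] [Module E W]
    [FiniteDimensional E W] (B : LinearMap.BilinForm E W), (2 : E) ≠ 0 →
    (∀ x y, B x y = B y x) → (∀ x : W, (∀ y, B x y = 0) → x = 0) → 3 ≤ Module.finrank E W →
    ∃ u : W, u ≠ 0 ∧ B u u = 0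

/-- The Weyl step: no element of `M` moves a singular vector to a non-orthogonal one. -/
def LemW1 : Prop :=
  ∀ {E : Type u} [Field E] {W : Type v} [AddCommGroup W] [Module E W] [FiniteDimensional E W]
    (r : ℕ) [Fact r.Prime] [CharP E r] (_hr2 : r ≠ 2)
    (B : LinearMap.BilinForm E W) (_hsym : ∀ x y, B x y = B y x)
    (_hnd : ∀ x : W, (∀ y, B x y = 0) → x = 0) (_hdim : 3 ≤ Module.finrank E W)
    (M : Set (W → W)) (_hM : MData B M)
    (_hodd : ∀ ψ ∈ M, ∃ (k : ℕ) (α : E), Odd k ∧ ∀ x, ψ^[k] x = α • x),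
    ∀ ψ ∈ M, ∀ u : W, B u u = 0 → B (ψ u) u = 0

/-- From the Weyl step to scalars. -/
def LemW2 : Prop :=
  ∀ {E : Type u} [Field E] {W : Type v} [AddCommGroup W] [Module E W] [FiniteDimensional E W]
    (_h2 : (2 : E) ≠ 0)
    (B : LinearMap.BilinForm E W) (_hsym : ∀ x y, B x y = B y x)
    (_hnd : ∀ x : W, (∀ y, B x y = 0) → x = 0)
    (_hdim : Module.finrank E W = 3 ∨ 5 ≤ Module.finrank E W)
    (_hiso : ∃ u : W, u ≠ 0 ∧ B u u = 0)
    (M : Set (W → W)) (_hM : MData B M)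
    (_h1 : ∀ ψ ∈ M, ∀ u : W, B u u = 0 → B (ψ u) u = 0),
    ∀ ψ ∈ M, ∃ α : E, ∀ x, ψ x = α • x

/-- Lemma W: an "odd order" group of semilinear similarities normalized by the Siegel maps
consists of scalars. -/
def LemW : Prop :=
  ∀ {E : Type u} [Field E] {W : Type v} [AddCommGroup W] [Module E W] [FiniteDimensional E W]
    (r : ℕ) [Fact r.Prime] [CharP E r] (_hr2 : r ≠ 2)
    (B : LinearMap.BilinForm E W) (_hsym : ∀ x y, B x y = B y x)
    (_hnd : ∀ x : W, (∀ y, B x y = 0) → x = 0)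
    (_hdim : Module.finrank E W = 3 ∨ 5 ≤ Module.finrank E W)
    (_hiso : ∃ u : W, u ≠ 0 ∧ B u u = 0)
    (M : Set (W → W)) (_hM : MData B M)
    (_hodd : ∀ ψ ∈ M, ∃ (k : ℕ) (α : E), Odd k ∧ ∀ x, ψ^[k] x = α • x),
    ∀ ψ ∈ M, ∃ α : E, ∀ x, ψ x = α • x

theorem two_ne_zero_of_charP {E : Type u} [Field E] (r : ℕ) [Fact r.Prime] [CharP E r]
    (hr2 : r ≠ 2) : (2 : E) ≠ 0 := by
  intro h0
  have h1 : ((2 : ℕ) : E) = 0 := by exact_mod_cast h0
  rw [CharP.cast_eq_zero_iff E r] at h1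
  have h3 := Nat.le_of_dvd (by norm_num) h1
  have h4 := (Fact.out : r.Prime).two_le
  omega

theorem lemW_of (h1 : LemW1.{u, v}) (h2 : LemW2.{u, v}) : LemW.{u, v} := by
  intro E _ W _ _ _ r _ _ hr2 B hsym hnd hdim hiso M hM hodd
  have hd3 : 3 ≤ Module.finrank E W := by
    rcases hdim with h | h <;> omega
  exact h2 (two_ne_zero_of_charP r hr2) B hsym hnd hdim hiso M hM
    (h1 r hr2 B hsym hnd hd3 M hM hodd)

/-- A set `S` of semisimilarities of `Q` commuting with the similarity `g` up to scalars, closed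
under products, inverses and conjugation by the isometries of `r`-power one commuting with `g`,
and all of whose elements have an odd power which is a scalar. -/
structure SData {F : Type u} [Field F] {ι : Type} [Fintype ι] [DecidableEq ι]
    (Q : QuadraticForm F (ι → F)) (r : ℕ) (g : Matrix ι ι F) (S : Set (SemiGL ι F)) : Prop where
  semi : ∀ s ∈ S, s ∈ semiSim (⇑Q)
  mul : ∀ s ∈ S, ∀ s' ∈ S, s * s' ∈ S
  inv : ∀ s ∈ S, s⁻¹ ∈ S
  comm : ∀ s ∈ S, ∃ lam : F, ∀ v, sact s (g *ᵥ v) = lam • (g *ᵥ sact s v)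
  conj : ∀ s ∈ S, ∀ e : GL ι F, (∀ v, Q ((e : Matrix ι ι F) *ᵥ v) = Q v) →
    (e : Matrix ι ι F) * g = g * (e : Matrix ι ι F) → e ^ r = 1 →
    (SemidirectProduct.inl e : SemiGL ι F) * s * (SemidirectProduct.inl e)⁻¹ ∈ S
  odd : ∀ s ∈ S, ∃ (k : ℕ) (lam : F), Odd k ∧ ∀ v, sact (s ^ k) v = lam • v

/-- The conclusion of the graph-involution packages: the element is a scalar or a scalar
multiple of `g`. -/
def SConcl {F : Type u} [Field F] {ι : Type} [Fintype ι] [DecidableEq ι]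
    (g : Matrix ι ι F) (s : SemiGL ι F) : Prop :=
  s.right = 1 ∧ ((∃ α : F, (s.left : Matrix ι ι F) = α • (1 : Matrix ι ι F)) ∨
    (∃ α : F, (s.left : Matrix ι ι F) = α • g))

/-- First kind: `g` an isometric involution of determinant `-1` (both eigenspaces of odd
dimension). -/
def GB1 : Prop :=
  ∀ {F : Type u} [Field F] [Fintype F] {ι : Type} [Fintype ι] [DecidableEq ι]
    (Q : QuadraticForm F (ι → F)) (_hQ : (QuadraticMap.polarBilin Q).Nondegenerate)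
    (r : ℕ) [Fact r.Prime] [CharP F r] (_hr2 : r ≠ 2)
    (_hcard : 8 ≤ Fintype.card ι) (_hev : Even (Fintype.card ι))
    (g : Matrix ι ι F) (_hgg : g * g = 1) (_hgQ : ∀ v, Q (g *ᵥ v) = Q v) (_hdet : g.det = -1)
    (S : Set (SemiGL ι F)) (_hS : SData Q r g S),
    ∀ s ∈ S, SConcl g s

/-- Second kind: `g * g = c` a non-square, `g` a similarity of multiplier `c`, half the dimension
odd. -/
def GB2 : Prop :=
  ∀ {F : Type u} [Field F] [Fintype F] {ι : Type} [Fintype ι] [DecidableEq ι]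
    (Q : QuadraticForm F (ι → F)) (_hQ : (QuadraticMap.polarBilin Q).Nondegenerate)
    (r : ℕ) [Fact r.Prime] [CharP F r] (_hr2 : r ≠ 2)
    (k : ℕ) (_hk : Odd k) (_hk3 : 3 ≤ k) (_hcard : Fintype.card ι = 2 * k)
    (g : Matrix ι ι F) (c : F) (_hc : ¬ IsSquare c) (_hgg : g * g = c • (1 : Matrix ι ι F))
    (_hgQ : ∀ v, Q (g *ᵥ v) = c * Q v)
    (S : Set (SemiGL ι F)) (_hS : SData Q r g S),
    ∀ s ∈ S, SConcl g s

/-- The statement S2733 for odd `p` (field automorphisms). -/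
def PartA : Prop :=
  ∀ {F : Type u} [Field F] [Fintype F] {r : ℕ} [Fact r.Prime] [CharP F r] {m : ℕ} (_hm : 3 ≤ m)
    (a b : F) (_hab : ∀ z₁ z₂ : F, z₁ ^ 2 + a * z₁ * z₂ + b * z₂ ^ 2 = 0 → z₁ = 0 ∧ z₂ = 0)
    (_hK : IsSimpleGroup (Cfsg.POmega F (Cfsg.quadFormMinus m F a b)))
    (A : Subgroup (MulAut (Cfsg.POmega F (Cfsg.quadFormMinus m F a b))))
    (_hinn : ∀ k : Cfsg.POmega F (Cfsg.quadFormMinus m F a b), MulAut.conj k ∈ A)
    {p : ℕ} [Fact p.Prime] (_hpr : p ≠ r) (_hp2 : p ≠ 2)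
    (x : MulAut (Cfsg.POmega F (Cfsg.quadFormMinus m F a b))) (_hxA : x ∈ A)
    (_hord : orderOf x = p) (_hnot : ¬ Cfsg.IsInnerDiagonalAutPOmegaMinus m a b x),
    Cfsg.pPrimeCore p ↥(A ⊓ Subgroup.centralizer {x}) ≠ ⊥ ↔
      (Cfsg.IsFieldAutClassPOmegaMinus m x ∧ Nat.Coprime p (Nat.card
        ↥(MonoidHom.eqLocus x.toMonoidHom
          (MonoidHom.id (Cfsg.POmega F (Cfsg.quadFormMinus m F a b))))))

end Cfsg.Agent.Lib.Helper43.OMinusBal
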