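import Cfsg.Agent.Lib.Helper43.OMinusBal.Final
import Cfsg.Agent.Lib.Helper21.OMinusBal.LemW1
import Cfsg.Agent.Lib.Helper65.OMinusBal.LemW2
import Cfsg.Agent.Lib.Helper90.OMinusBal.LemIso
import Cfsg.Agent.Lib.Helper97.OMinusBal.GB1
import Cfsg.Agent.Lib.Helper87.OMinusBal.GB2

/-!
# S2733 assembly, modulo Part A

All packages except `PartA` are plugged into `balance_minus`.
-/

set_option autoImplicit false

universe u

namespace Cfsg.Agent.Lib.Helper43.OMinusBal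

/-- The Weyl lemma, assembled from its two halves. -/
theorem lemW_asm : LemW.{u, u} :=
  lemW_of Cfsg.Agent.Lib.Helper21.OMinusBal.lemW1 Cfsg.Agent.Lib.Helper65.OMinusBal.lemW2

/-- The first generic-balance package, assembled. -/
theorem gb1_asm : GB1.{u} :=
  Cfsg.Agent.Lib.Helper97.OMinusBal.gb1 lemW_asm Cfsg.Agent.Lib.Helper90.OMinusBal.lemIso

/-- The second generic-balance package, assembled. -/
theorem gb2_asm : GB2.{u} :=
  Cfsg.Agent.Lib.Helper87.OMinusBal.gb2 lemW_asm Cfsg.Agent.Lib.Helper90.OMinusBal.lemIso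

/-- S2733 modulo Part A. -/
theorem balance_minus_of_partA (hA : PartA.{u})
    {F : Type u} [Field F] [Fintype F] {r : ℕ} [Fact r.Prime] [CharP F r] {m : ℕ} (hm : 3 ≤ m)
    (a b : F) (hab : ∀ z₁ z₂ : F, z₁ ^ 2 + a * z₁ * z₂ + b * z₂ ^ 2 = 0 → z₁ = 0 ∧ z₂ = 0)
    (hK : IsSimpleGroup (Cfsg.POmega F (Cfsg.quadFormMinus m F a b)))
    (A : Subgroup (MulAut (Cfsg.POmega F (Cfsg.quadFormMinus m F a b))))
    (hinn : ∀ k : Cfsg.POmega F (Cfsg.quadFormMinus m F a b), MulAut.conj k ∈ A)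
    {p : ℕ} [Fact p.Prime] (hpr : p ≠ r)
    (x : MulAut (Cfsg.POmega F (Cfsg.quadFormMinus m F a b))) (hxA : x ∈ A)
    (hord : orderOf x = p) (hnot : ¬ Cfsg.IsInnerDiagonalAutPOmegaMinus m a b x) :
    Cfsg.pPrimeCore p ↥(A ⊓ Subgroup.centralizer {x}) ≠ ⊥ ↔
      (Cfsg.IsFieldAutClassPOmegaMinus m x ∧ Nat.Coprime p (Nat.card
        ↥(MonoidHom.eqLocus x.toMonoidHom
          (MonoidHom.id (Cfsg.POmega F (Cfsg.quadFormMinus m F a b)))))) :=
  balance_minus hA gb1_asm gb2_asm hm a b hab hK A hinn hpr x hxA hord hnot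

end Cfsg.Agent.Lib.Helper43.OMinusBal
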