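import Mathlib
import Cfsg.Prelude.Def_LieTypeDatum
import Cfsg.Agent.Lib.Helper43.OMinusBal.Defs

/-!
# S2733: the two halves of the field-automorphism package `PartA`
-/

set_option autoImplicit false

namespace Cfsg.Agent.Lib.Helper43.OMinusBal

universe u

/-- An automorphism of odd prime order which is not inner-diagonal is a field automorphism. -/
def PartA1 : Prop :=
  ∀ {F : Type u} [Field F] [Fintype F] {m : ℕ} (_hm : 3 ≤ m)
    (a b : F) (_hab : ∀ z₁ z₂ : F, z₁ ^ 2 + a * z₁ * z₂ + b * z₂ ^ 2 = 0 → z₁ = 0 ∧ z₂ = 0)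
    {p : ℕ} (_hp : p.Prime) (_hp2 : p ≠ 2)
    (x : MulAut (Cfsg.POmega F (Cfsg.quadFormMinus m F a b)))
    (_hord : orderOf x = p) (_hnot : ¬ Cfsg.IsInnerDiagonalAutPOmegaMinus m a b x),
    Cfsg.IsFieldAutClassPOmegaMinus m x

/-- Local balance for a field automorphism of odd prime order different from the
characteristic. -/
def PartA2 : Prop :=
  ∀ {F : Type u} [Field F] [Fintype F] {r : ℕ} [Fact r.Prime] [CharP F r] {m : ℕ} (_hm : 3 ≤ m)
    (a b : F) (_hab : ∀ z₁ z₂ : F, z₁ ^ 2 + a * z₁ * z₂ + b * z₂ ^ 2 = 0 → z₁ = 0 ∧ z₂ = 0)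
    (_hK : IsSimpleGroup (Cfsg.POmega F (Cfsg.quadFormMinus m F a b)))
    (A : Subgroup (MulAut (Cfsg.POmega F (Cfsg.quadFormMinus m F a b))))
    (_hinn : ∀ k : Cfsg.POmega F (Cfsg.quadFormMinus m F a b), MulAut.conj k ∈ A)
    {p : ℕ} [Fact p.Prime] (_hpr : p ≠ r) (_hp2 : p ≠ 2)
    (x : MulAut (Cfsg.POmega F (Cfsg.quadFormMinus m F a b))) (_hxA : x ∈ A)
    (_hord : orderOf x = p) (_hfield : Cfsg.IsFieldAutClassPOmegaMinus m x),
    Cfsg.pPrimeCore p ↥(A ⊓ Subgroup.centralizer {x}) ≠ ⊥ ↔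
      Nat.Coprime p (Nat.card
        ↥(MonoidHom.eqLocus x.toMonoidHom
          (MonoidHom.id (Cfsg.POmega F (Cfsg.quadFormMinus m F a b)))))

theorem partA_of (h1 : PartA1.{u}) (h2 : PartA2.{u}) : PartA.{u} := by
  intro F _ _ r _ _ m hm a b hab hK A hinn p _ hpr hp2 x hxA hord hnot
  have hf := h1 hm a b hab (Fact.out : p.Prime) hp2 x hord hnot
  have h := h2 hm a b hab hK A hinn hpr hp2 x hxA hord hf
  constructor
  · intro hc
    exact ⟨hf, h.mp hc⟩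
  · rintro ⟨-, hc⟩
    exact h.mpr hc

end Cfsg.Agent.Lib.Helper43.OMinusBal
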