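import Mathlib
import Cfsg.Prelude.Def_LieTypeDatum
import Cfsg.Agent.Lib.Helper14.AutON
import Cfsg.Agent.Lib.Helper14.Spinor
import Cfsg.Agent.Lib.Helper8.GraphInvOdd
import Cfsg.Agent.Lib.Helper43.OMinusBal.Defs

/-!
# S2733, group side, part 1: isometries of odd order lie in `Ω`; determinant of an
anti-isometric involution
-/

set_option autoImplicit false

namespace Cfsg.Agent.Lib.Helper43.OMinusBal

open Cfsg.Agent.Lib.Helper14 Matrix Module

universe u

section

variable {ι : Type} [Fintype ι] [DecidableEq ι] {F : Type u} [Field F]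

theorem reflElt_mul_self (Q : QuadraticForm F (ι → F))
    (hQ : (QuadraticMap.polarBilin Q).Nondegenerate) (v : ι → F) (hv : Q v ≠ 0) :
    reflElt Q hQ v hv * reflElt Q hQ v hv = 1 := by
  apply isom_ext
  show Cfsg.reflectionMatrix ⇑Q v * Cfsg.reflectionMatrix ⇑Q v = 1
  exact reflectionMatrix_mul_self Q hv

/-- The square of an isometry lies in the commutator subgroup. -/
theorem sq_mem_commutator (h2 : (2 : F) ≠ 0) (Q : QuadraticForm F (ι → F))
    (hQ : (QuadraticMap.polarBilin Q).Nondegenerate) (e : ↥(Cfsg.isometryGroup F ⇑Q)) :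
    e * e ∈ commutator ↥(Cfsg.isometryGroup F ⇑Q) := by
  obtain ⟨l, hl, rfl⟩ := exists_eq_prodElt h2 Q hQ e
  induction l with
  | nil =>
    rw [prodElt_nil, mul_one]
    exact Subgroup.one_mem _
  | cons a l ih =>
    rw [prodElt_cons]
    obtain ⟨ρ, hρ⟩ : ∃ ρ, ρ = reflElt Q hQ a (hl a (List.mem_cons_self ..)) := ⟨_, rfl⟩
    obtain ⟨e', he'⟩ : ∃ e', e' = prodElt Q hQ l (fun u hu => hl u (List.mem_cons_of_mem _ hu)) :=
      ⟨_, rfl⟩
    rw [← hρ, ← he']
    have h1 : e' * e' ∈ commutator ↥(Cfsg.isometryGroup F ⇑Q) := by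
      rw [he']
      exact ih _
    have hρ2 : ρ * ρ = 1 := by
      rw [hρ]
      exact reflElt_mul_self Q hQ a _
    have h3 : ρ * e' * (ρ * e') = (ρ * e' * ρ⁻¹ * e'⁻¹) * (e' * e') := by
      have hρi : ρ⁻¹ = ρ := inv_eq_of_mul_eq_one_left hρ2
      rw [hρi]
      group
    rw [h3]
    apply Subgroup.mul_mem _ _ h1
    have h4 := Subgroup.commutator_mem_commutator (Subgroup.mem_top ρ) (Subgroup.mem_top e')
    rw [commutatorElement_def] at h4
    rw [commutator_def]
    exact h4

/-- An isometry of odd order lies in `Ω`. -/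
theorem mem_omega_of_pow (h2 : (2 : F) ≠ 0) (Q : QuadraticForm F (ι → F))
    (hQ : (QuadraticMap.polarBilin Q).Nondegenerate) (e : ↥(Cfsg.isometryGroup F ⇑Q))
    (r : ℕ) (hr : Odd r) (her : e ^ r = 1) : e ∈ Cfsg.Omega F ⇑Q := by
  obtain ⟨j, hj⟩ := hr
  have h1 : e = (e ^ (j + 1)) * (e ^ (j + 1)) := by
    rw [← pow_add]
    have h3 : j + 1 + (j + 1) = r + 1 := by omega
    rw [h3, pow_succ, her, one_mul]
  rw [h1]
  exact sq_mem_commutator h2 Q hQ _

/-- An involution negating the quadratic form has determinant `(-1)^k` in dimension `2k`. -/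
theorem det_anti_involution (h2 : (2 : F) ≠ 0) (Q : QuadraticForm F (ι → F))
    (hQ : (QuadraticMap.polarBilin Q).Nondegenerate) (k : ℕ) (hk : Fintype.card ι = 2 * k)
    (A : Matrix ι ι F) (hAA : A * A = 1) (hA : ∀ v, Q (A *ᵥ v) = -Q v) : A.det = (-1) ^ k := by
  have hf : ∀ x, A.mulVecLin (A.mulVecLin x) = x := by
    intro x
    rw [Matrix.mulVecLin_apply, Matrix.mulVecLin_apply, Matrix.mulVec_mulVec, hAA,
      Matrix.one_mulVec]
  obtain ⟨hdet, hsum⟩ := Cfsg.Agent.Lib.Helper8.GraphInvOdd.det_involution h2 A.mulVecLin hf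
  have hts : ∀ (ε : F), ε * ε = 1 → ∀ x : ι → F, A *ᵥ x = ε • x → Q x = 0 := by
    intro ε hε x hx
    have h3 := hA x
    rw [hx, QuadraticMap.map_smul, smul_eq_mul, hε, one_mul] at h3
    have h5 : (2 : F) * Q x = 0 := by linear_combination h3
    rcases mul_eq_zero.mp h5 with h | h
    · exact absurd h h2
    · exact h
  have hiso : ∀ (X : Submodule F (ι → F)), (∀ x ∈ X, Q x = 0) →
      2 * finrank F X ≤ finrank F (ι → F) := by
    intro X hX
    apply two_mul_finrank_le_of_isotropic hQ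
    intro x hx y hy
    have h3 := hX (x + y) (X.add_mem hx hy)
    rw [QuadraticMap.map_add (⇑Q) x y, hX x hx, hX y hy, zero_add, zero_add] at h3
    exact h3
  have hp := hiso (LinearMap.ker (A.mulVecLin - LinearMap.id)) (by
    intro x hx
    rw [LinearMap.mem_ker, LinearMap.sub_apply, LinearMap.id_apply, sub_eq_zero,
      Matrix.mulVecLin_apply] at hx
    exact hts 1 (by ring) x (by rw [hx, one_smul]))
  have hq := hiso (LinearMap.ker (A.mulVecLin + LinearMap.id)) (by
    intro x hx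
    rw [LinearMap.mem_ker, LinearMap.add_apply, LinearMap.id_apply, add_eq_zero_iff_eq_neg,
      Matrix.mulVecLin_apply] at hx
    exact hts (-1) (by ring) x (by rw [hx, neg_smul, one_smul]))
  rw [Module.finrank_fintype_fun_eq_card, hk] at hp hq hsum
  have hqk : finrank F (LinearMap.ker (A.mulVecLin + LinearMap.id)) = k := by omega
  have hd : A.det = LinearMap.det A.mulVecLin := by
    rw [← Matrix.toLin'_apply', LinearMap.det_toLin']
  rw [hd, hdet, hqk]

end

end Cfsg.Agent.Lib.Helper43.OMinusBal
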