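import Mathlib
import Cfsg.Prelude.Def_LieTypeDatum
import Cfsg.Agent.Lib.Helper14.AutON
import Cfsg.Agent.Lib.Helper8.GraphInvMinus
import Cfsg.Agent.Lib.Helper43.AutSp4.Core
import Cfsg.Agent.Lib.Helper43.OMinusBal.Group1

/-!
# S2733, group side, part 2: from an odd-order normal subgroup of the centralizer of an
involutory similarity automorphism to a set of semisimilarities
-/

set_option autoImplicit false

namespace Cfsg.Agent.Lib.Helper43.OMinusBal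

open Cfsg.Agent.Lib.Helper14 Cfsg.Agent.Lib.Helper44 Matrix Module

universe u

section generic

variable {ι : Type} [Fintype ι] [DecidableEq ι] {F : Type u} [Field F]

theorem sact_inl (e : GL ι F) (v : ι → F) :
    sact (SemidirectProduct.inl e : SemiGL ι F) v = (e : Matrix ι ι F) *ᵥ v := by
  unfold sact
  rw [SemidirectProduct.left_inl, SemidirectProduct.right_inl]
  rfl

theorem sact_of_right (s : SemiGL ι F) (hs : s.right = 1) (v : ι → F) :
    sact s v = (s.left : Matrix ι ι F) *ᵥ v := by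
  unfold sact
  rw [hs]
  rfl

/-- The preimage in the group of pairs of a subgroup of `Aut(PΩ)`. -/
def pre (Qf : (ι → F) → F) (M : Subgroup (MulAut (Cfsg.POmega F Qf))) : Set (SemiGL ι F) :=
  {s | ∃ h : s ∈ semiSim Qf, semiAut Qf ⟨s, h⟩ ∈ M}

theorem pre_mul (Qf : (ι → F) → F) (M : Subgroup (MulAut (Cfsg.POmega F Qf)))
    {s s' : SemiGL ι F} (hs : s ∈ pre Qf M) (hs' : s' ∈ pre Qf M) : s * s' ∈ pre Qf M := by
  obtain ⟨h, hm⟩ := hs
  obtain ⟨h', hm'⟩ := hs'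
  refine ⟨(semiSim Qf).mul_mem h h', ?_⟩
  have e : (⟨s * s', (semiSim Qf).mul_mem h h'⟩ : ↥(semiSim Qf)) = ⟨s, h⟩ * ⟨s', h'⟩ := rfl
  rw [e, map_mul]
  exact M.mul_mem hm hm'

theorem pre_inv (Qf : (ι → F) → F) (M : Subgroup (MulAut (Cfsg.POmega F Qf)))
    {s : SemiGL ι F} (hs : s ∈ pre Qf M) : s⁻¹ ∈ pre Qf M := by
  obtain ⟨h, hm⟩ := hs
  refine ⟨(semiSim Qf).inv_mem h, ?_⟩
  have e : (⟨s⁻¹, (semiSim Qf).inv_mem h⟩ : ↥(semiSim Qf)) = (⟨s, h⟩ : ↥(semiSim Qf))⁻¹ := rfl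
  rw [e, map_inv]
  exact M.inv_mem hm

end generic

section kernel

variable {ι : Type} [Fintype ι] [DecidableEq ι] {F : Type u} [Field F] [Fintype F]
variable (Q : QuadraticForm F (ι → F)) (hQ : (QuadraticMap.polarBilin Q).Nondegenerate)
  (E : Submodule F (ι → F)) (hE : 3 ≤ finrank F E) (hE0 : ∀ x ∈ E, Q x = 0)

include hQ hE hE0

/-- The kernel of the action of the semisimilarities on `PΩ` consists of scalars. -/
theorem ker_semiAut (z : ↥(semiSim ⇑Q)) (hz : semiAut ⇑Q z = 1) :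
    ∃ lam : F, lam ≠ 0 ∧ ∀ v, sact (z : SemiGL ι F) v = lam • v := by
  have hn : 5 ≤ Fintype.card ι := by
    have h1 := two_mul_finrank_le_of_ts hQ hE0
    rw [Module.finrank_fintype_fun_eq_card] at h1
    omega
  have h1 := semiAut_right_eq_one Q hQ hn z hz
  obtain ⟨h, hh⟩ := exists_sim_of_right_eq_one ⇑Q z h1
  have h3 : simAut ⇑Q h = 1 := by
    rw [← semiAut_simToSemi, hh, hz]
  obtain ⟨lam, hlam0, hlam⟩ := scalar_of_simAut_eq_one Q hQ E hE hE0 h h3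
  refine ⟨lam, hlam0, fun v => ?_⟩
  rw [sact_of_right _ h1, ← hh, simToSemi_left, hlam, smul_mulVec, one_mulVec]

end kernel

section inner

variable {ι : Type} [Fintype ι] [DecidableEq ι] {F : Type u} [Field F]

theorem conj_conj_aut {G : Type*} [Group G] (x : MulAut G) (q : G) :
    x * MulAut.conj q * x⁻¹ = MulAut.conj (x q) := by
  apply MulEquiv.ext
  intro y
  simp [MulAut.conj_apply, MulAut.mul_apply]

/-- The automorphism induced by an element of `Ω` (as a pair) is inner. -/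
theorem semiAut_inl (Qf : (ι → F) → F) (e : ↥(Cfsg.isometryGroup F Qf))
    (he : e ∈ Cfsg.Omega F Qf)
    (h : (SemidirectProduct.inl (e : GL ι F) : SemiGL ι F) ∈ semiSim Qf) :
    semiAut Qf ⟨SemidirectProduct.inl (e : GL ι F), h⟩ =
      MulAut.conj (QuotientGroup.mk ⟨e, he⟩ : Cfsg.POmega F Qf) := by
  apply MulEquiv.ext
  intro q
  obtain ⟨s, rfl⟩ := QuotientGroup.mk_surjective q
  rw [semiAut_mk, MulAut.conj_apply, ← QuotientGroup.mk_mul, ← QuotientGroup.mk_inv,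
    ← QuotientGroup.mk_mul]
  congr 1

/-- The automorphism induced by a similarity fixes the class of an element of `Ω` commuting with
it. -/
theorem simAut_fix (Qf : (ι → F) → F) (g : ↥(Cfsg.Geo.quadSimilarityGroup (F := F) Qf))
    (e : ↥(Cfsg.Omega F Qf))
    (hcomm : ((g : GL ι F) : Matrix ι ι F) *
        (((e : ↥(Cfsg.isometryGroup F Qf)) : GL ι F) : Matrix ι ι F) =
      (((e : ↥(Cfsg.isometryGroup F Qf)) : GL ι F) : Matrix ι ι F) * ((g : GL ι F) : Matrix ι ι F)) :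
    simAut Qf g (QuotientGroup.mk e) = QuotientGroup.mk e := by
  rw [simAut_mk]
  congr 1
  apply Subtype.ext
  apply isom_ext
  rw [simConj_coe, hcomm, Matrix.mul_assoc, ← Units.val_mul, mul_inv_cancel, Units.val_one,
    Matrix.mul_one]

end inner

section sdata

variable {ι : Type} [Fintype ι] [DecidableEq ι] {F : Type u} [Field F] [Fintype F]
variable (Q : QuadraticForm F (ι → F)) (hQ : (QuadraticMap.polarBilin Q).Nondegenerate)
  (E : Submodule F (ι → F)) (hE : 3 ≤ finrank F E) (hE0 : ∀ x ∈ E, Q x = 0)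

include hQ hE hE0

/-- The preimage of an odd-order subgroup `M` of the centralizer of `x = simAut g₀`, normalized by
the centralizer of `x` in `A ≥ Inn`, satisfies `SData` for every non-zero multiple of `g₀`. -/
theorem sdata_pre (r : ℕ) [Fact r.Prime] (hr2 : r ≠ 2) (h2 : (2 : F) ≠ 0)
    (g₀ : ↥(Cfsg.Geo.quadSimilarityGroup (F := F) ⇑Q)) (x : MulAut (Cfsg.POmega F ⇑Q))
    (hx : x = simAut ⇑Q g₀)
    (A : Subgroup (MulAut (Cfsg.POmega F ⇑Q)))
    (hinn : ∀ q : Cfsg.POmega F ⇑Q, MulAut.conj q ∈ A)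
    (M : Subgroup (MulAut (Cfsg.POmega F ⇑Q)))
    (hMD : M ≤ A ⊓ Subgroup.centralizer {x})
    (hnorm : ∀ d ∈ A ⊓ Subgroup.centralizer {x}, ∀ a ∈ M, d * a * d⁻¹ ∈ M)
    (hc : (Nat.card M).Coprime 2) (t : F) (ht : t ≠ 0) :
    SData Q r (t • ((g₀ : GL ι F) : Matrix ι ι F)) (pre ⇑Q M) := by
  have hxs : x = semiAut ⇑Q (simToSemi ⇑Q g₀) := by rw [semiAut_simToSemi, hx]
  have hodd : Odd (Nat.card M) := Nat.coprime_two_right.mp hc
  refine ⟨fun s hs => hs.1, fun s hs s' hs' => pre_mul _ M hs hs', fun s hs => pre_inv _ M hs,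
    ?_, ?_, ?_⟩
  · -- comm
    rintro s ⟨h, hm⟩
    obtain ⟨ŝ, hŝ⟩ : ∃ ŝ : ↥(semiSim ⇑Q), ŝ = ⟨s, h⟩ := ⟨_, rfl⟩
    rw [← hŝ] at hm
    have hcen : semiAut ⇑Q ŝ ∈ Subgroup.centralizer {x} := (hMD hm).2
    rw [Subgroup.mem_centralizer_iff] at hcen
    have hcomm : x * semiAut ⇑Q ŝ = semiAut ⇑Q ŝ * x := hcen x rfl
    obtain ⟨ĝ, hĝ⟩ : ∃ ĝ : ↥(semiSim ⇑Q), ĝ = simToSemi ⇑Q g₀ := ⟨_, rfl⟩
    rw [← hĝ] at hxs
    have hker : semiAut ⇑Q (ŝ * ĝ * ŝ⁻¹ * ĝ⁻¹) = 1 := by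
      rw [map_mul, map_mul, map_mul, map_inv, map_inv, ← hxs, ← hcomm]
      group
    obtain ⟨lam, -, hlam⟩ := ker_semiAut Q hQ E hE hE0 _ hker
    have hsg : ∀ v, sact s (((g₀ : GL ι F) : Matrix ι ι F) *ᵥ v) =
        lam • (((g₀ : GL ι F) : Matrix ι ι F) *ᵥ sact s v) := by
      intro v
      have h1 := hlam (sact ((ĝ : SemiGL ι F) * (ŝ : SemiGL ι F)) v)
      rw [← sact_mul] at h1
      have h3 : ((ŝ * ĝ * ŝ⁻¹ * ĝ⁻¹ : ↥(semiSim ⇑Q)) : SemiGL ι F) *
          ((ĝ : SemiGL ι F) * (ŝ : SemiGL ι F)) = (ŝ : SemiGL ι F) * (ĝ : SemiGL ι F) := by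
        rw [Subgroup.coe_mul, Subgroup.coe_mul, Subgroup.coe_mul, Subgroup.coe_inv,
          Subgroup.coe_inv]
        group
      rw [h3, sact_mul, sact_mul] at h1
      have h4 : ∀ w, sact (ĝ : SemiGL ι F) w = ((g₀ : GL ι F) : Matrix ι ι F) *ᵥ w := by
        intro w
        rw [hĝ]
        exact sact_inl _ w
      rw [h4, h4, hŝ] at h1
      exact h1
    refine ⟨s.right t * lam * t⁻¹, fun v => ?_⟩
    rw [smul_mulVec, sact_smul, hsg, smul_mulVec, smul_smul, smul_smul]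
    congr 1
    field_simp
  · -- conj
    rintro s ⟨h, hm⟩ e he hcomm her
    have hemem : e ∈ Cfsg.isometryGroup F ⇑Q := by
      rw [Cfsg.Agent.Lib.Helper14.mem_isometryGroup_iff]
      exact he
    obtain ⟨ê, hê⟩ : ∃ ê : ↥(Cfsg.isometryGroup F ⇑Q), ê = ⟨e, hemem⟩ := ⟨_, rfl⟩
    have hêcoe : ((ê : ↥(Cfsg.isometryGroup F ⇑Q)) : GL ι F) = e := by rw [hê]
    have hêr : ê ^ r = 1 := by
      apply Subtype.ext
      rw [Subgroup.coe_pow, hêcoe]
      exact her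
    have hrodd : Odd r := (Fact.out : r.Prime).odd_of_ne_two hr2
    have hΩ : ê ∈ Cfsg.Omega F ⇑Q := mem_omega_of_pow h2 Q hQ ê r hrodd hêr
    have hinl : (SemidirectProduct.inl ((ê : ↥(Cfsg.isometryGroup F ⇑Q)) : GL ι F) : SemiGL ι F) ∈
        semiSim ⇑Q := by
      refine ⟨1, fun v => ?_⟩
      have h1 := sact_inl ((ê : ↥(Cfsg.isometryGroup F ⇑Q)) : GL ι F) v
      unfold sact at h1
      rw [SemidirectProduct.left_inl, SemidirectProduct.right_inl] at h1 ⊢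
      rw [h1, hêcoe, Units.val_one, one_mul]
      exact he v
    have hconj := semiAut_inl ⇑Q ê hΩ hinl
    obtain ⟨q, hq⟩ : ∃ q : Cfsg.POmega F ⇑Q, q = QuotientGroup.mk ⟨ê, hΩ⟩ := ⟨_, rfl⟩
    rw [← hq] at hconj
    have hcomm' : ((g₀ : GL ι F) : Matrix ι ι F) * ((ê : GL ι F) : Matrix ι ι F) =
        ((ê : GL ι F) : Matrix ι ι F) * ((g₀ : GL ι F) : Matrix ι ι F) := by
      rw [hêcoe]
      have h5 := hcomm
      rw [Matrix.mul_smul, Matrix.smul_mul] at h5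
      have h6 := smul_right_injective (Matrix ι ι F) ht h5
      exact h6.symm
    have hxq : x q = q := by
      rw [hx, hq]
      exact simAut_fix ⇑Q g₀ ⟨ê, hΩ⟩ hcomm'
    have hd : MulAut.conj q ∈ A ⊓ Subgroup.centralizer {x} := by
      refine ⟨hinn q, Subgroup.mem_centralizer_iff.mpr ?_⟩
      rintro y rfl
      have h7 := conj_conj_aut y q
      rw [hxq] at h7
      calc y * MulAut.conj q = y * MulAut.conj q * y⁻¹ * y := by group
        _ = MulAut.conj q * y := by rw [h7]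
    have hres := hnorm _ hd _ hm
    have hmem : (SemidirectProduct.inl e : SemiGL ι F) * s * (SemidirectProduct.inl e)⁻¹ ∈
        semiSim ⇑Q := by
      have h8 : (SemidirectProduct.inl e : SemiGL ι F) ∈ semiSim ⇑Q := by
        rw [hêcoe] at hinl
        exact hinl
      exact (semiSim ⇑Q).mul_mem ((semiSim ⇑Q).mul_mem h8 h) ((semiSim ⇑Q).inv_mem h8)
    refine ⟨hmem, ?_⟩
    have h9 : (⟨(SemidirectProduct.inl e : SemiGL ι F) * s * (SemidirectProduct.inl e)⁻¹, hmem⟩ :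
        ↥(semiSim ⇑Q)) = ⟨SemidirectProduct.inl ((ê : ↥(Cfsg.isometryGroup F ⇑Q)) : GL ι F), hinl⟩ *
          ⟨s, h⟩ * (⟨SemidirectProduct.inl ((ê : ↥(Cfsg.isometryGroup F ⇑Q)) : GL ι F), hinl⟩ :
            ↥(semiSim ⇑Q))⁻¹ := by
      apply Subtype.ext
      show _ = (SemidirectProduct.inl ((ê : ↥(Cfsg.isometryGroup F ⇑Q)) : GL ι F) : SemiGL ι F) * s *
        (SemidirectProduct.inl ((ê : ↥(Cfsg.isometryGroup F ⇑Q)) : GL ι F))⁻¹
      rw [hêcoe]
    rw [h9, map_mul, map_mul, map_inv, hconj]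
    exact hres
  · -- odd
    rintro s ⟨h, hm⟩
    obtain ⟨ŝ, hŝ⟩ : ∃ ŝ : ↥(semiSim ⇑Q), ŝ = ⟨s, h⟩ := ⟨_, rfl⟩
    rw [← hŝ] at hm
    have hpow : semiAut ⇑Q (ŝ ^ Nat.card M) = 1 := by
      rw [map_pow]
      have h3 : (⟨semiAut ⇑Q ŝ, hm⟩ : M) ^ Nat.card M = 1 := pow_card_eq_one'
      have h4 := congrArg Subtype.val h3
      rwa [Subgroup.coe_pow, Subgroup.coe_one] at h4
    obtain ⟨lam, -, hlam⟩ := ker_semiAut Q hQ E hE hE0 _ hpow
    refine ⟨Nat.card M, lam, hodd, fun v => ?_⟩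
    have h5 := hlam v
    rw [Subgroup.coe_pow, hŝ] at h5
    exact h5

end sdata

end Cfsg.Agent.Lib.Helper43.OMinusBal
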