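import Mathlib
import Cfsg.Prelude.Def_LieTypeDatum
import Cfsg.Agent.Lib.Helper14.Spinor2
import Cfsg.Agent.Lib.Helper43.OMinusBal.Group2

/-!
# S2733, group side, part 3: no core for an involutory automorphism induced by a similarity
which is not class-preserving (given the two linear-algebra packages `GB1`, `GB2`)
-/

set_option autoImplicit false

namespace Cfsg.Agent.Lib.Helper43.OMinusBal

open Cfsg.Agent.Lib.Helper14 Cfsg.Agent.Lib.Helper44 Cfsg.Agent.Lib.Helper43.AutSp4 Matrix Module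

universe u

set_option maxHeartbeats 1000000 in
theorem no_core_generic (hg1 : GB1.{u}) (hg2 : GB2.{u})
    {ι : Type} [Fintype ι] [DecidableEq ι] {F : Type u} [Field F] [Fintype F]
    (r : ℕ) [Fact r.Prime] [CharP F r] (hr2 : r ≠ 2)
    (Q : QuadraticForm F (ι → F)) (hQ : (QuadraticMap.polarBilin Q).Nondegenerate)
    (E : Submodule F (ι → F)) (hE : 3 ≤ finrank F E) (hE0 : ∀ x ∈ E, Q x = 0)
    (hAut : Cfsg.gammaPOmega F ⇑Q = ⊤)
    (k : ℕ) (hcard : Fintype.card ι = 2 * k) (hk : 4 ≤ k)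
    (g₀ : ↥(Cfsg.Geo.quadSimilarityGroup (F := F) ⇑Q))
    (hdet : ((g₀ : GL ι F) : Matrix ι ι F).det = -(simMult ⇑Q g₀ : F) ^ k)
    (x : MulAut (Cfsg.POmega F ⇑Q)) (hx : x = simAut ⇑Q g₀) (hx2 : x * x = 1) (hx1 : x ≠ 1)
    (A : Subgroup (MulAut (Cfsg.POmega F ⇑Q)))
    (hinn : ∀ q : Cfsg.POmega F ⇑Q, MulAut.conj q ∈ A) :
    ¬ HasCore 2 (A ⊓ Subgroup.centralizer {x}) := by
  have h2 : (2 : F) ≠ 0 := two_ne_zero_of_charP r hr2
  rintro ⟨M, hMD, hnorm, hc, hne⟩
  apply hne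
  rw [eq_bot_iff]
  intro y hy
  rw [Subgroup.mem_bot]
  have hgg : simAut ⇑Q (g₀ * g₀) = 1 := by rw [map_mul, ← hx, hx2]
  obtain ⟨c, hc0, hcc⟩ := scalar_of_simAut_eq_one Q hQ E hE hE0 (g₀ * g₀) hgg
  have hcc' : ((g₀ : GL ι F) : Matrix ι ι F) * ((g₀ : GL ι F) : Matrix ι ι F) =
      c • (1 : Matrix ι ι F) := by
    rw [← hcc, Subgroup.coe_mul, Units.val_mul]
  obtain ⟨μ, hμ⟩ : ∃ μ : F, μ = (simMult ⇑Q g₀ : F) := ⟨_, rfl⟩
  have hμ0 : μ ≠ 0 := by rw [hμ]; exact Units.ne_zero _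
  have hspec : ∀ v, Q (((g₀ : GL ι F) : Matrix ι ι F) *ᵥ v) = μ * Q v := by
    intro v
    rw [hμ]
    exact simMult_spec ⇑Q g₀ v
  rw [← hμ] at hdet
  obtain ⟨v₀, hv₀⟩ := exists_quad_ne_zero Q hQ (by
    rw [Module.finrank_fintype_fun_eq_card]; omega)
  have hμc : μ = c ∨ μ = -c := by
    have h1 := hspec (((g₀ : GL ι F) : Matrix ι ι F) *ᵥ v₀)
    rw [mulVec_mulVec, hcc', smul_mulVec, one_mulVec, QuadraticMap.map_smul, hspec,
      smul_eq_mul] at h1
    have h3 : (μ - c) * (μ + c) = 0 := by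
      have h4 : ((μ - c) * (μ + c)) * Q v₀ = 0 := by linear_combination -h1
      exact (mul_eq_zero.mp h4).resolve_right hv₀
    rcases mul_eq_zero.mp h3 with h | h
    · left; exact sub_eq_zero.mp h
    · right; exact eq_neg_of_add_eq_zero_left h
  have key : ∀ t : F, t ≠ 0 →
      (∀ s ∈ pre ⇑Q M, SConcl (t • ((g₀ : GL ι F) : Matrix ι ι F)) s) → y = 1 := by
    intro t ht hS
    obtain ⟨ŝ, hŝ⟩ := semiAut_surjective ⇑Q hAut y
    have hmem : (ŝ : SemiGL ι F) ∈ pre ⇑Q M := ⟨ŝ.2, by rw [Subtype.coe_eta, hŝ]; exact hy⟩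
    obtain ⟨hright, hleft⟩ := hS _ hmem
    obtain ⟨z, hz⟩ := exists_sim_of_right_eq_one ⇑Q ŝ hright
    have hyz : y = simAut ⇑Q z := by rw [← hŝ, ← hz, semiAut_simToSemi]
    have hzl : ((z : GL ι F) : Matrix ι ι F) = ((ŝ : SemiGL ι F).left : Matrix ι ι F) := by
      rw [← hz]
      rfl
    rcases hleft with ⟨α, hα⟩ | ⟨α, hα⟩
    · rw [hyz]
      exact simAut_eq_one_of_scalar ⇑Q z α (by rw [hzl, hα])
    · have hyx : y = x := by
        have h1 : simAut ⇑Q (z * g₀⁻¹) = 1 := by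
          apply simAut_eq_one_of_scalar ⇑Q _ (α * t)
          rw [Subgroup.coe_mul, Units.val_mul, hzl, hα, Subgroup.coe_inv, smul_mul_assoc,
            smul_mul_assoc, ← Units.val_mul, mul_inv_cancel, Units.val_one, smul_smul]
        rw [map_mul, map_inv, ← hyz, ← hx] at h1
        exact mul_inv_eq_one.mp h1
      exfalso
      apply hx1
      rw [hyx] at hy
      have hodd : Odd (Nat.card M) := Nat.coprime_two_right.mp hc
      have h3 : (⟨x, hy⟩ : M) ^ Nat.card M = 1 := pow_card_eq_one'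
      have h4 : x ^ Nat.card M = 1 := by
        have h5 := congrArg Subtype.val h3
        rwa [Subgroup.coe_pow, Subgroup.coe_one] at h5
      obtain ⟨j, hj⟩ := hodd
      rw [hj, pow_succ, pow_mul, pow_two, hx2, one_pow, one_mul] at h4
      exact h4
  by_cases hsq : IsSquare c
  · obtain ⟨ν, hν⟩ := hsq
    have hν0 : ν ≠ 0 := by
      rintro rfl
      rw [mul_zero] at hν
      exact hc0 hν
    apply key ν⁻¹ (inv_ne_zero hν0)
    have hgg' : (ν⁻¹ • ((g₀ : GL ι F) : Matrix ι ι F)) * (ν⁻¹ • ((g₀ : GL ι F) : Matrix ι ι F)) =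
        1 := by
      rw [smul_mul_assoc, mul_smul_comm, hcc', smul_smul, smul_smul, hν]
      have h5 : ν⁻¹ * ν⁻¹ * (ν * ν) = 1 := by field_simp
      rw [h5, one_smul]
    have hdet' : (ν⁻¹ • ((g₀ : GL ι F) : Matrix ι ι F)).det = -(μ / c) ^ k := by
      rw [det_smul, hcard, hdet, hν]
      have h6 : (ν⁻¹) ^ (2 * k) = ((ν * ν) ^ k)⁻¹ := by
        rw [pow_mul, inv_pow, ← pow_two, inv_pow]
      rw [h6, div_pow]
      field_simp
    have hQ' : ∀ v, Q ((ν⁻¹ • ((g₀ : GL ι F) : Matrix ι ι F)) *ᵥ v) = (μ / c) * Q v := by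
      intro v
      rw [smul_mulVec, QuadraticMap.map_smul, hspec, hν, smul_eq_mul]
      field_simp
    rcases hμc with h | h
    · have hμc1 : μ / c = 1 := by rw [h]; exact div_self hc0
      rw [hμc1] at hdet' hQ'
      rw [one_pow] at hdet'
      exact hg1 Q hQ r hr2 (by omega) ⟨k, by omega⟩ _ hgg' (fun v => by rw [hQ', one_mul]) hdet'
        _ (sdata_pre Q hQ E hE hE0 r hr2 h2 g₀ x hx A hinn M hMD hnorm hc ν⁻¹ (inv_ne_zero hν0))
    · exfalso
      have hμc1 : μ / c = -1 := by rw [h, neg_div, div_self hc0]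
      rw [hμc1] at hdet' hQ'
      have hd1 := det_anti_involution h2 Q hQ k hcard _ hgg' (fun v => by rw [hQ', neg_one_mul])
      rw [hdet'] at hd1
      have h7 : (2 : F) * (-1) ^ k = 0 := by linear_combination -hd1
      rcases mul_eq_zero.mp h7 with h8 | h8
      · exact h2 h8
      · exact pow_ne_zero k (neg_ne_zero.mpr one_ne_zero) h8
  · have hd := Cfsg.Agent.Lib.Helper8.GraphInvOdd.det_of_sq_nonsquare k hcard
      ((g₀ : GL ι F) : Matrix ι ι F) c hsq hcc'
    rw [hdet] at hd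
    rcases hμc with h | h
    · rw [h] at hd
      have hkodd : Odd k := by
        by_contra hko
        rw [Nat.not_odd_iff_even] at hko
        rw [hko.neg_pow] at hd
        have h7 : (2 : F) * c ^ k = 0 := by linear_combination -hd
        rcases mul_eq_zero.mp h7 with h8 | h8
        · exact h2 h8
        · exact pow_ne_zero k hc0 h8
      apply key 1 one_ne_zero
      rw [one_smul]
      have hsd := sdata_pre Q hQ E hE hE0 r hr2 h2 g₀ x hx A hinn M hMD hnorm hc 1 one_ne_zero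
      rw [one_smul] at hsd
      exact hg2 Q hQ r hr2 k hkodd (by omega) hcard _ c hsq hcc' (fun v => by rw [hspec, h]) _ hsd
    · exfalso
      rw [h] at hd
      have h7 : (2 : F) * (-c) ^ k = 0 := by linear_combination -hd
      rcases mul_eq_zero.mp h7 with h8 | h8
      · exact h2 h8
      · exact pow_ne_zero k (neg_ne_zero.mpr hc0) h8

end Cfsg.Agent.Lib.Helper43.OMinusBal
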