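import Mathlib
import Cfsg.Prelude.Def_LieTypeDatum
import Cfsg.Agent.Lib.Helper14.FldP
import Cfsg.Agent.Lib.Helper8.GraphInvMinus
import Cfsg.Agent.Lib.Helper43.OMinusBal.Group3
import Cfsg.Agent.Lib.Helper43.OMinusBal.DefsA

/-!
# S2733: local balance for `PΩ⁻`, assembled from the packages
-/

set_option autoImplicit false

namespace Cfsg.Agent.Lib.Helper43.OMinusBal

open Cfsg.Agent.Lib.Helper14 Cfsg.Agent.Lib.Helper44 Cfsg.Agent.Lib.Helper43.AutSp4 Matrix Module

universe u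

/-- `no_core_generic` for a form given as a function. -/
theorem no_core_generic' (hg1 : GB1.{u}) (hg2 : GB2.{u})
    {ι : Type} [Fintype ι] [DecidableEq ι] {F : Type u} [Field F] [Fintype F]
    (r : ℕ) [Fact r.Prime] [CharP F r] (hr2 : r ≠ 2)
    (Q : QuadraticForm F (ι → F)) (hQ : (QuadraticMap.polarBilin Q).Nondegenerate)
    (Qf : (ι → F) → F) (hQf : ⇑Q = Qf)
    (E : Submodule F (ι → F)) (hE : 3 ≤ finrank F E) (hE0 : ∀ x ∈ E, Q x = 0)
    (hAut : Cfsg.gammaPOmega F Qf = ⊤)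
    (k : ℕ) (hcard : Fintype.card ι = 2 * k) (hk : 4 ≤ k)
    (g₀ : ↥(Cfsg.Geo.quadSimilarityGroup (F := F) Qf))
    (hdet : ∀ c : F, c ≠ 0 → (∀ v, Qf (((g₀ : GL ι F) : Matrix ι ι F) *ᵥ v) = c * Qf v) →
      ((g₀ : GL ι F) : Matrix ι ι F).det ≠ c ^ k)
    (x : MulAut (Cfsg.POmega F Qf)) (hx : x = simAut Qf g₀) (hx2 : x * x = 1) (hx1 : x ≠ 1)
    (A : Subgroup (MulAut (Cfsg.POmega F Qf)))
    (hinn : ∀ q : Cfsg.POmega F Qf, MulAut.conj q ∈ A) :
    ¬ HasCore 2 (A ⊓ Subgroup.centralizer {x}) := by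
  subst hQf
  have hd : ((g₀ : GL ι F) : Matrix ι ι F).det = -(simMult ⇑Q g₀ : F) ^ k := by
    rcases sim_det_cases Q hQ k hcard g₀ with h | h
    · exact absurd h (hdet _ (Units.ne_zero _) (simMult_spec ⇑Q g₀))
    · exact h
  exact no_core_generic hg1 hg2 r hr2 Q hQ E hE hE0 hAut k hcard hk g₀ hd x hx hx2 hx1 A hinn

theorem odd_card_of_char {F : Type u} [Field F] [Fintype F] (r : ℕ) [Fact r.Prime] [CharP F r]
    (hr2 : r ≠ 2) : Odd (Fintype.card F) := by
  have h1 : ringChar F ≠ 2 := by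
    rw [ringChar.eq F r]
    exact hr2
  have h2 := FiniteField.odd_card_of_char_ne_two h1
  exact Nat.odd_iff.mpr h2

/-- S2733 from the packages. -/
theorem balance_minus (hA : PartA.{u}) (hg1 : GB1.{u}) (hg2 : GB2.{u})
    {F : Type u} [Field F] [Fintype F] {r : ℕ} [Fact r.Prime] [CharP F r] {m : ℕ} (hm : 3 ≤ m)
    (a b : F) (hab : ∀ z₁ z₂ : F, z₁ ^ 2 + a * z₁ * z₂ + b * z₂ ^ 2 = 0 → z₁ = 0 ∧ z₂ = 0)
    (hK : IsSimpleGroup (Cfsg.POmega F (Cfsg.quadFormMinus m F a b)))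
    (A : Subgroup (MulAut (Cfsg.POmega F (Cfsg.quadFormMinus m F a b))))
    (hinn : ∀ k : Cfsg.POmega F (Cfsg.quadFormMinus m F a b), MulAut.conj k ∈ A)
    {p : ℕ} [Fact p.Prime] (hpr : p ≠ r)
    (x : MulAut (Cfsg.POmega F (Cfsg.quadFormMinus m F a b))) (hxA : x ∈ A)
    (hord : orderOf x = p) (hnot : ¬ Cfsg.IsInnerDiagonalAutPOmegaMinus m a b x) :
    Cfsg.pPrimeCore p ↥(A ⊓ Subgroup.centralizer {x}) ≠ ⊥ ↔
      (Cfsg.IsFieldAutClassPOmegaMinus m x ∧ Nat.Coprime p (Nat.card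
        ↥(MonoidHom.eqLocus x.toMonoidHom
          (MonoidHom.id (Cfsg.POmega F (Cfsg.quadFormMinus m F a b)))))) := by
  by_cases hp2 : p = 2
  · subst hp2
    have hr2 : r ≠ 2 := fun h => hpr h.symm
    have h2 : (2 : F) ≠ 0 := two_ne_zero_of_charP r hr2
    have hodd : Odd (Fintype.card F) := odd_card_of_char r hr2
    constructor
    · intro hcore
      exfalso
      rw [pPrimeCore_ne_bot_iff] at hcore
      revert hcore
      have hAut : Cfsg.gammaPOmega F (Cfsg.quadFormMinus m F a b) = ⊤ := by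
        have h := minus_gamma_top m hm a b hab
        rw [minusQF_coe] at h
        exact h
      have hx2 : x * x = 1 := by
        have h3 := pow_orderOf_eq_one x
        rw [hord, pow_two] at h3
        exact h3
      have hx1 : x ≠ 1 := by
        rintro rfl
        rw [orderOf_one] at hord
        omega
      have hγ : x ∈ Cfsg.gammaPOmega F (Cfsg.quadFormMinus m F a b) := by
        rw [hAut]
        trivial
      obtain ⟨g', hγeq⟩ :=
        Cfsg.Agent.Lib.Helper8.GraphInvSemi.minus_invol_sim hodd m hm a b hab x hγ hx2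
      obtain ⟨E, hE, hE0⟩ := minus_ts_three (F := F) m hm a b
      apply no_core_generic' hg1 hg2 r hr2 (minusQF m F a b)
        (minusQF_nondegenerate m F h2 a b hab) _ (minusQF_coe m F a b) E hE hE0 hAut (m + 1)
        (minus_card m) (by omega) g' ?_ x hγeq hx2 hx1 A hinn
      intro c hc hg hdet
      apply hnot
      refine ⟨(g' : GL ((Fin m ⊕ Fin m) ⊕ Fin 2) F), g'.2, ?_, ?_⟩
      · exact (minus_preserves_iff h2 m a b hab _ c hc
          ((Matrix.isUnit_iff_isUnit_det _).mp (Units.isUnit _)) hg).mpr hdet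
      · rw [hγeq]
        exact Cfsg.Agent.Lib.Helper8.GraphInvMinus.induced_of_simAut _ g'
    · rintro ⟨hfield, -⟩
      exfalso
      obtain ⟨a', b', σ, S, A', ν, κ, hab', hσa, hσb, hσr, -⟩ :=
        field_aut_setup m hm a b hab _ (minusQF_coe m F a b) x hfield 2 Nat.prime_two hord
      have h3 := odd_of_fixed_aniso σ 2 Nat.prime_two hσr a' b' hab' hσa hσb
      exact absurd h3 (by decide)
  · exact hA hm a b hab hK A hinn hpr hp2 x hxA hord hnot

end Cfsg.Agent.Lib.Helper43.OMinusBal
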